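import Mathlib
import Cfsg.Agent.H277.EM.Univ
import Cfsg.Agent.H62.SpMult
import Cfsg.Agent.H874.UnfPsp

/-!
# S2243, row `PSp_2m(q)`, `q` odd (task 2597 of helper277, helper889)

Every perfect central 2-extension of `PSp_2m(q)` is a quotient of `Sp_2m(q)` by a subgroup of `⟨-1⟩`. The elements `A` of
`Sp_2m(q)` with `A² = 1` are conjugate to `dB δ` (signs on the hyperbolic planes), the elements with `A² = -1` are
conjugate to `J = (i, ..., i)`, and `J` commutes with the `dB δ`.
-/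

set_option autoImplicit false

namespace Cfsg.Agent.H889.EMPsp

open Matrix Subgroup Cfsg Cfsg.Agent.ClassicalGeometry.SympBasic Cfsg.Agent.HoltZ.Psp Cfsg.Agent.ClosedTwo.Psp
open Cfsg.Agent.ClassicalGeometry.SympInvolutions Cfsg.Agent.H277.MI Cfsg.Agent.H874.UnfPsp
open Cfsg.Agent.H51.Mult

variable {F : Type*} [Field F] {m : ℕ}

local notation "G" => Matrix.symplecticGroup (Fin m) F
local notation "Mat" => Matrix (Fin m ⊕ Fin m) (Fin m ⊕ Fin m) F
local notation "SL" => Matrix.SpecialLinearGroup (Fin 2) F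

theorem dB_sq (δ : Fin m → Bool) : (dB δ : G) * dB δ = 1 := by
  unfold dB
  rw [← map_mul, ← map_one blk]
  congr 1
  funext i
  rw [Pi.mul_apply, Pi.one_apply]
  split_ifs <;> simp

theorem dB_comm (δ : Fin m → Bool) (g : Fin m → SL) : (dB δ : G) * blk g = blk g * dB δ := by
  unfold dB
  rw [← map_mul, ← map_mul]
  congr 1
  funext i
  rw [Pi.mul_apply, Pi.mul_apply]
  split_ifs <;> simp

/-- an element of square `-1` of the form `(i, ..., i)` -/
theorem exists_blk : ∃ g : Fin m → SL, ((blk g : G) : Mat) * (blk g : G) = -1 := by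
  let i₀ : SL := ⟨!![0, -1; 1, 0], by rw [det_fin_two_of]; ring⟩
  have hi : i₀ * i₀ = -1 := by
    apply Subtype.ext
    show !![0, -1; 1, 0] * !![0, -1; 1, 0] = (-1 : Matrix (Fin 2) (Fin 2) F)
    ext k l
    fin_cases k <;> fin_cases l <;> simp
  refine ⟨fun _ => i₀, ?_⟩
  rw [← Submonoid.coe_mul, ← map_mul]
  have : (fun _ : Fin m => i₀) * (fun _ => i₀) = fun _ => -1 := by
    funext i
    exact hi
  rw [this, blk_neg_one]

theorem crow_psp [Fintype F] (hF : Odd (Fintype.card F)) (hm : 2 ≤ m) : CRow (PSp m F) := by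
  have hodd : Fintype.card F % 2 = 1 := Nat.odd_iff.1 hF
  have h2 : (2 : F) ≠ 0 := two_ne_zero_of_odd hodd
  have h3 : 3 ≤ Fintype.card F := by
    have := Fintype.one_lt_card (α := F)
    omega
  intro L _ _ π hπ _
  have hσ : PCE (QuotientGroup.mk' (center G)) :=
    ⟨QuotientGroup.mk'_surjective _, by rw [QuotientGroup.ker_mk'], (H62.SpMult.perfect_Sp hm fun _ => h3)⟩
  have hcard : Nat.gcd 2 (Fintype.card F - 1) ≤ Nat.card (QuotientGroup.mk' (center G)).ker := by
    have h4 : negOne m F ≠ 1 := by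
      intro h
      have h5 : ((negOne m F : G) : Mat) = 1 := by rw [h]; rfl
      have h6 := congrFun (congrFun h5 (Sum.inl ⟨0, by omega⟩)) (Sum.inl ⟨0, by omega⟩)
      have h7 : (-1 : F) = 1 := by
        have h8 : (-1 : Mat) (Sum.inl ⟨0, by omega⟩) (Sum.inl ⟨0, by omega⟩) = -1 := by
          rw [Matrix.neg_apply, Matrix.one_apply_eq]
        rw [← h8]
        rw [Matrix.one_apply_eq] at h6
        exact h6
      apply h2
      linear_combination -h7
    have h5 : 1 < Nat.card (QuotientGroup.mk' (center G)).ker := by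
      rw [QuotientGroup.ker_mk']
      have : Nontrivial (center G) := ⟨⟨⟨negOne m F, negOne_mem_center⟩, 1, fun h => h4 (congrArg Subtype.val h)⟩⟩
      exact Finite.one_lt_card
    exact (Nat.gcd_le_left _ (by norm_num)).trans h5
  obtain ⟨f, hf, hfπ⟩ := exists_cover_map_cyclic hσ hπ
    (H62.SpMult.hasMultiplier_PSp hm (fun _ => h3) (fun h => by omega)) hcard
  obtain ⟨g, hg⟩ := exists_blk (F := F) (m := m)
  refine em_of_commuting ({y | ∃ δ, y = f (dB δ)} ∪ {y | y = f (blk g) ∧ f (negOne m F) = 1}) ?_ ?_ ?_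
  · rintro x (⟨δ, rfl⟩ | ⟨rfl, h⟩)
    · rw [← map_mul, dB_sq, map_one]
    · rw [← map_mul, ← h]
      congr 1
      exact Subtype.ext hg
  · rintro x (⟨δ, rfl⟩ | ⟨rfl, h⟩) y (⟨δ', rfl⟩ | ⟨rfl, h'⟩)
    · rw [← map_mul, ← map_mul]
      congr 1
      exact dB_comm δ _
    · rw [← map_mul, ← map_mul, dB_comm]
    · rw [← map_mul, ← map_mul, dB_comm]
    · rfl
  · intro t ht
    obtain ⟨A, rfl⟩ := hf t
    have hAA : f (A * A) = 1 := by rw [map_mul]; exact sq_of_orderOf ht
    have hc : A * A ∈ center G := by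
      have h4 : QuotientGroup.mk' (center G) (A * A) = 1 := by rw [← hfπ, hAA, map_one]
      rwa [← MonoidHom.mem_ker, QuotientGroup.ker_mk'] at h4
    have key : ∀ B : G, f B ∈ ({y | ∃ δ, y = f (dB δ)} ∪ {y | y = f (blk g) ∧ f (negOne m F) = 1} : Set L) →
        IsConj A B → ∃ k : L, k * f A * k⁻¹ ∈ Subgroup.closure
          ({y | ∃ δ, y = f (dB δ)} ∪ {y | y = f (blk g) ∧ f (negOne m F) = 1} : Set L) := by
      intro B hB hAB
      obtain ⟨k, hk⟩ := isConj_iff.1 hAB
      refine ⟨f k, ?_⟩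
      rw [← map_inv, ← map_mul, ← map_mul, hk]
      exact subset_closure hB
    rcases center_eq hc with h | h
    · obtain ⟨δ, hδ⟩ := exists_hasPattern h2 A.2 h
      exact key (dB δ) (Or.inl ⟨δ, rfl⟩) (isConj_of_hasPattern hδ (dB_hasPattern δ))
    · have h5 : A * A = negOne m F := Subtype.ext h
      exact key (blk g) (Or.inr ⟨rfl, by rw [← h5, hAA]⟩) (isConj_of_sq_neg_one hodd h hg)

universe u

/-- **Row `PSp_2m(q)`, `q` odd.** -/
theorem crow_psp_odd {L : Type u} [Group L] {F : Type} [Field F] [Fintype F]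
    (hF : Odd (Fintype.card F)) {m : ℕ} (hm : 2 ≤ m) (e : L ≃* Cfsg.PSp m F) : CRow L :=
  CRow.congr e (crow_psp hF hm)

end Cfsg.Agent.H889.EMPsp
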