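import Mathlib
import Cfsg.Agent.H251.Unf.Four
import Cfsg.Agent.H105.SzU2

/-!
# Conjugacy in `SU_n(q)`, `q` odd, of elements with scalar square (helper889, S2243)
-/

set_option autoImplicit false
set_option linter.unusedSectionVars false

namespace Cfsg.Agent.H889.EMPsu

open Cfsg Matrix Subgroup Module
open Cfsg.Agent.LieClassical.HermBasic Cfsg.Agent.LieClassical.HermSiegel
open Cfsg.Agent.ClassicalGeometry.PSUAutBasic Cfsg.Agent.ClassicalGeometry.HermOrtho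
open Cfsg.Agent.ClassicalGeometry.PSUAutCount (toAut gm gm_mul gm_one gm_mul_inv gm_inv_mul guConj act_guConj gm_inj
  gm_inv_mulVec gm_mulVec_inv herm_gm)
open Cfsg.Agent.H251.Unf

variable {F : Type*} [Field F] [Fintype F] {q n m : ℕ}

/-! ### from `GU` to `SU` -/

/-- elements of `GU` with determinant one -/
theorem exists_su (C : GU n F q) (h : (gm C).det = 1) : ∃ c : SU n F q, ∀ A : SU n F q, c * A * c⁻¹ = guConj C A := by
  refine ⟨mkSU (gm C) h (fun u v => herm_gm C u v), fun A => ?_⟩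
  rw [mul_inv_eq_iff_eq_mul]
  apply ext_act
  intro v
  rw [act_mul, act_mul, act_guConj]
  simp only [act_def, mat_mkSU, gm_inv_mulVec]

theorem guConj_eq_of_comm {D : GU n F q} {B : SU n F q} (h : ∀ w, gm D *ᵥ act B w = act B (gm D *ᵥ w)) :
    guConj D B = B := by
  apply ext_act
  intro v
  rw [act_guConj, h, gm_mulVec_inv]

theorem guConj_mul (D C : GU n F q) (A : SU n F q) : guConj (D * C) A = guConj D (guConj C A) := by
  apply ext_act
  intro v
  rw [act_guConj, act_guConj, act_guConj, gm_mul, _root_.mul_inv_rev, gm_mul, mulVec_mulVec, mulVec_mulVec]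

/-- conjugacy in `SU` -/
theorem conj_su (hF : Fintype.card F = q ^ 2) {A B : SU n F q} {C : GU n F q} (hC : guConj C A = B)
    (hD : ∀ δ : F, δ * δ ^ q = 1 → ∃ D : GU n F q, (gm D).det = δ ∧ guConj D B = B) :
    ∃ c : SU n F q, c * A * c⁻¹ = B := by
  have h1 : (gm C).det ^ (q + 1) = 1 :=
    ClassicalGeometry.GUBasic.det_pow hF ((ClassicalGeometry.GUBasic.mem_GU_iff _).1 C.2)
  have h0 : (gm C).det ≠ 0 := by
    intro h
    rw [h, zero_pow (Nat.succ_ne_zero q)] at h1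
    exact zero_ne_one h1
  obtain ⟨D, hD1, hD2⟩ := hD ((gm C).det)⁻¹ (by rw [← pow_succ', inv_pow, h1, inv_one])
  obtain ⟨c, hc⟩ := exists_su (D * C) (by rw [gm_mul, det_mul, hD1, inv_mul_cancel₀ h0])
  exact ⟨c, by rw [hc, guConj_mul, hC, hD2]⟩

/-- diagonal elements of every determinant -/
theorem diag_cent (hn : 1 ≤ n) {B : SU n F q} {d : Fin n → F}
    (hB : ∀ i, act B (Pi.single i 1) = d i • Pi.single i 1) (δ : F) (hδ : δ * δ ^ q = 1) :
    ∃ D : GU n F q, (gm D).det = δ ∧ guConj D B = B := by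
  let i0 : Fin n := ⟨0, by omega⟩
  obtain ⟨a, ha⟩ : ∃ a : Fin n → F, a = fun i => if i = i0 then δ else 1 := ⟨_, rfl⟩
  have ha1 : ∀ i, a i ^ (q + 1) = 1 := by
    intro i
    rw [ha]
    simp only
    split_ifs
    · rw [pow_succ', hδ]
    · exact one_pow _
  have hg : gm (ClassicalGeometry.GUBasic.guDiag q a ha1) = Matrix.diagonal a := rfl
  refine ⟨ClassicalGeometry.GUBasic.guDiag q a ha1, ?_, guConj_eq_of_comm fun w => ?_⟩
  · rw [hg, det_diagonal, ha]
    simp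
  · rw [act_of_basis hB, act_of_basis hB, hg]
    funext i
    rw [mulVec_diagonal, Pi.mul_apply, Pi.mul_apply, mulVec_diagonal]
    ring

/-! ### block diagonal matrices -/

/-- block diagonal matrices with different blocks -/
def bk (e : Fin 2 × Fin m ≃ Fin n) (g : Fin m → Matrix (Fin 2) (Fin 2) F) : Matrix (Fin n) (Fin n) F :=
  (blockDiagonal g).submatrix e.symm e.symm

theorem bk_mulVec (e : Fin 2 × Fin m ≃ Fin n) (g : Fin m → Matrix (Fin 2) (Fin 2) F) (u : Fin n → F) (l : Fin 2)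
    (i : Fin m) : (bk e g *ᵥ u) (e (l, i)) = (g i *ᵥ fun l' => u (e (l', i))) l := by
  have h1 : (bk e g *ᵥ u) (e (l, i)) = ∑ k : Fin n, bk e g (e (l, i)) k * u k := rfl
  rw [h1, ← Equiv.sum_comp e, Fintype.sum_prod_type]
  have h2 : (g i *ᵥ fun l' => u (e (l', i))) l = ∑ l', g i l l' * u (e (l', i)) := rfl
  rw [h2]
  refine Finset.sum_congr rfl fun l' _ => ?_
  rw [Finset.sum_eq_single i]
  · congr 1
    unfold bk
    rw [submatrix_apply, e.symm_apply_apply, e.symm_apply_apply, blockDiagonal_apply_eq]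
  · intro i' _ hi
    unfold bk
    rw [submatrix_apply, e.symm_apply_apply, e.symm_apply_apply, blockDiagonal_apply_ne _ _ _ hi.symm, zero_mul]
  · intro h
    exact absurd (Finset.mem_univ i) h

theorem bk_mul (e : Fin 2 × Fin m ≃ Fin n) (g h : Fin m → Matrix (Fin 2) (Fin 2) F) :
    bk e (fun i => g i * h i) = bk e g * bk e h := by
  unfold bk
  rw [submatrix_mul_equiv, ← blockDiagonal_mul]

theorem det_bk (e : Fin 2 × Fin m ≃ Fin n) (g : Fin m → Matrix (Fin 2) (Fin 2) F) :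
    (bk e g).det = ∏ i, (g i).det := by
  unfold bk
  rw [det_submatrix_equiv_self, det_blockDiagonal]

/-- the special `2 × 2` isometries -/
theorem two_isom (hF : Fintype.card F = q ^ 2) {s t c : F} (h1 : s * s ^ q + t * t ^ q = 1)
    (h2 : s * t ^ q * c ^ q + t * s ^ q = 0) (h3 : t * c * s ^ q + s * t ^ q = 0) (h4 : c * c ^ q = 1) (u v : Fin 2 → F) :
    hermForm 2 F q (!![s, t * c; t, s] *ᵥ u) (!![s, t * c; t, s] *ᵥ v) = hermForm 2 F q u v := by
  have e1 : ∀ w : Fin 2 → F, (!![s, t * c; t, s] *ᵥ w) = ![s * w 0 + t * c * w 1, t * w 0 + s * w 1] := by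
    intro w
    ext i
    fin_cases i <;> simp [Matrix.mulVec, dotProduct, Fin.sum_univ_two]
  rw [e1, e1, herm_def, herm_def, Fin.sum_univ_two, Fin.sum_univ_two]
  simp only [Matrix.cons_val_zero, Matrix.cons_val_one]
  rw [add_pow_q hF, add_pow_q hF]
  simp only [mul_pow]
  linear_combination (u 0 * v 0 ^ q) * h1 + (u 0 * v 1 ^ q) * h2 + (u 1 * v 0 ^ q) * h3 + (u 1 * v 1 ^ q) * h1 +
    (u 1 * v 1 ^ q * t * t ^ q) * h4

/-- the centralizer of an element in pair form contains elements of every determinant -/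
theorem pair_cent (hF : Fintype.card F = q ^ 2) (hodd : Odd q) (hm : 0 < m) {e : Fin 2 × Fin m ≃ Fin n} {B : SU n F q}
    {ν : F} (hν : ν * ν ^ q = -1)
    (hB : ∀ i, act B (Pi.single (e (0, i)) 1) = (1 : F) • Pi.single (e (1, i)) 1 ∧
      act B (Pi.single (e (1, i)) 1) = (ν * ν) • Pi.single (e (0, i)) 1) (δ : F) (hδ : δ * δ ^ q = 1) :
    ∃ D : GU n F q, (gm D).det = δ ∧ ∀ w, gm D *ᵥ act B w = act B (gm D *ᵥ w) := by
  have h2 := two_ne hF hodd
  have h2q : ((2 : F)) ^ q = 2 := by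
    have := add_pow_q hF (1 : F) 1
    rw [one_pow, one_add_one_eq_two] at this
    exact this
  have hν0 : ν ≠ 0 := by
    rintro rfl
    rw [zero_mul] at hν
    exact one_ne_zero (neg_eq_zero.1 hν.symm)
  obtain ⟨a, ha0, ha⟩ := H105.SzU.hilbert90 hF hδ
  have haq0 : a ^ q ≠ 0 := pow_ne_zero _ ha0
  obtain ⟨b, hb⟩ : ∃ b, b = (a ^ q)⁻¹ := ⟨_, rfl⟩
  have hb0 : b ≠ 0 := by rw [hb]; exact inv_ne_zero haq0
  have haq : a ^ q = b⁻¹ := by rw [hb, inv_inv]
  have hbq : b ^ q = a⁻¹ := by rw [hb, inv_pow, pow_q_pow_q hF]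
  have hab : a * b = δ := by
    rw [hb, mul_inv_eq_iff_eq_mul₀ haq0]
    exact ha
  have hνq : ν ^ q = -ν⁻¹ := by
    have h3 : ν * ν ^ q * ν⁻¹ = -ν⁻¹ := by rw [hν, neg_one_mul]
    rw [← h3]
    field_simp
  obtain ⟨s, hs⟩ : ∃ s, s = (a + b) * (2 : F)⁻¹ := ⟨_, rfl⟩
  obtain ⟨t, ht⟩ : ∃ t, t = (a - b) * (2 * ν)⁻¹ := ⟨_, rfl⟩
  have hsq : s ^ q = (b⁻¹ + a⁻¹) * (2 : F)⁻¹ := by
    rw [hs, mul_pow, add_pow_q hF, haq, hbq, inv_pow, h2q]
  have htq : t ^ q = (b⁻¹ - a⁻¹) * (2 * (-ν⁻¹))⁻¹ := by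
    rw [ht, mul_pow, sub_pow_q hF, haq, hbq, inv_pow, mul_pow, h2q, hνq]
  have hcq : (ν * ν) ^ q = ν⁻¹ * ν⁻¹ := by rw [mul_pow, hνq]; ring
  have k1 : s * s ^ q + t * t ^ q = 1 := by
    rw [hsq, htq, hs, ht]
    field_simp
    ring
  have k2 : s * t ^ q * (ν * ν) ^ q + t * s ^ q = 0 := by
    rw [hsq, htq, hcq, hs, ht]
    field_simp
    ring
  have k3 : t * (ν * ν) * s ^ q + s * t ^ q = 0 := by
    rw [hsq, htq, hs, ht]
    field_simp
    ring
  have k4 : (ν * ν) * (ν * ν) ^ q = 1 := by rw [hcq]; field_simp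
  let i0 : Fin m := ⟨0, hm⟩
  obtain ⟨g, hg⟩ : ∃ g : Fin m → Matrix (Fin 2) (Fin 2) F, g = fun i => if i = i0 then !![s, t * (ν * ν); t, s] else 1 :=
    ⟨_, rfl⟩
  have hiso : ∀ u v : Fin n → F, hermForm n F q (bk e g *ᵥ u) (bk e g *ᵥ v) = hermForm n F q u v := by
    intro u v
    rw [herm_blocks e, herm_blocks e u v]
    refine Finset.sum_congr rfl fun i _ => ?_
    have h3 : ∀ w : Fin n → F, (fun l => (bk e g *ᵥ w) (e (l, i))) = g i *ᵥ (fun l => w (e (l, i))) := by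
      intro w
      funext l
      rw [bk_mulVec]
    rw [h3, h3, hg]
    simp only
    split_ifs
    · exact two_isom hF k1 k2 k3 k4 _ _
    · rw [one_mulVec, one_mulVec]
  obtain ⟨D, hDG, hD⟩ := exists_GU_of_isometry hF hiso
  have hgm : gm (⟨D, hDG⟩ : GU n F q) = bk e g := hD
  refine ⟨⟨D, hDG⟩, ?_, fun w => ?_⟩
  · rw [hgm, det_bk, hg, Finset.prod_eq_single i0]
    · beta_reduce
      rw [if_pos rfl, det_fin_two_of, ← hab, hs, ht]
      field_simp
      ring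
    · intro i _ hi
      beta_reduce
      rw [if_neg hi, det_one]
    · intro h
      exact absurd (Finset.mem_univ _) h
  · rw [act_def, act_def, hgm, mat_of_pair e hB, mulVec_mulVec, mulVec_mulVec]
    have h3 : blk e !![0, ν * ν; 1, 0] = bk e (fun _ => !![0, ν * ν; 1, 0]) := rfl
    rw [h3, ← bk_mul, ← bk_mul]
    congr 2
    funext i
    rw [hg]
    simp only
    split_ifs
    · ext k l
      fin_cases k <;> fin_cases l <;> simp [Matrix.mul_apply, Fin.sum_univ_two] <;> ring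
    · rw [Matrix.one_mul, Matrix.mul_one]

/-! ### two-adic bookkeeping -/

theorem two_adic {x : F} (h2 : (2 : F) ≠ 0) {a b : ℕ} (ha : x ^ a = -1) (hb : x ^ b = 1) (hb0 : b ≠ 0) {k : ℕ}
    (hk : 2 ^ k ∣ a) : 2 ^ (k + 1) ∣ b := by
  obtain ⟨j, b', hb', hbj⟩ := Nat.exists_eq_two_pow_mul_odd hb0
  by_contra hcon
  have hjk : j ≤ k := by
    by_contra h
    exact hcon (by rw [hbj]; exact Dvd.dvd.mul_right (pow_dvd_pow 2 (by omega)) _)
  obtain ⟨c, hc⟩ : 2 ^ j ∣ a := (pow_dvd_pow 2 hjk).trans hk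
  have h3 : x ^ (a * b') = -1 := by rw [pow_mul, ha, hb'.neg_one_pow]
  have h4 : x ^ (a * b') = 1 := by
    rw [hc, show 2 ^ j * c * b' = b * c by rw [hbj]; ring, pow_mul, hb, one_pow]
  rw [h3] at h4
  apply h2
  linear_combination -h4

/-- the two kinds of elements do not both occur with an odd number of signs -/
theorem no_both {x y : F} (h2 : (2 : F) ≠ 0) (hn : n ≠ 0) (h1 : x ^ n = -1) (h3 : x ^ (q + 1) = 1)
    (h4 : y ^ (q + 1) = -1) (h5 : y ^ (2 * n) = 1) : False := by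
  obtain ⟨k, n', hn', hk⟩ := Nat.exists_eq_two_pow_mul_odd hn
  have h6 : 2 ^ (k + 1) ∣ q + 1 := two_adic h2 h1 h3 (by omega) (by rw [hk]; exact dvd_mul_right _ _)
  have h7 : 2 ^ (k + 2) ∣ 2 * n := two_adic h2 h4 h5 (by omega) h6
  rw [hk, show 2 ^ (k + 2) = 2 * 2 ^ k * 2 by ring, show 2 * (2 ^ k * n') = 2 * 2 ^ k * n' by ring] at h7
  have h8 := Nat.dvd_of_mul_dvd_mul_left (by positivity) h7
  exact (Nat.not_even_iff_odd.2 hn') (even_iff_two_dvd.2 h8)

end Cfsg.Agent.H889.EMPsu
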