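import Mathlib
import Cfsg.Agent.H889.EM.PsuTools
import Cfsg.Agent.H889.EM.CovTwo
import Cfsg.Agent.H61.PSUMult
import Cfsg.Agent.ClassicalGeometry.SympInvolutions

/-!
# S2243, row `PSU_n(q)`, `q` odd (task 2595 of helper277, helper889)

Every perfect central 2-extension `L` of `PSU_n(q)` is a quotient `f : SU_n(q) → L` (`SU_n(q)` has no double cover). An
involution of `L` is `f A` with `A² = c` a scalar in the kernel, `c = ν²`, `ν^(q+1) = ± 1`. If `ν^(q+1) = 1`, `A` is
conjugate to a diagonal matrix; if `ν^(q+1) = -1` it is conjugate to a matrix in pair form. If the second kind occurs, the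
number of signs of the elements of the first kind is even, and the elementary abelian group consists of the diagonal
matrices constant on the pairs and of the multiples of one matrix in pair form.
-/

set_option autoImplicit false
set_option linter.unusedSectionVars false

namespace Cfsg.Agent.H889.EMPsu

open Cfsg Matrix Subgroup Module
open Cfsg.Agent.LieClassical.HermBasic Cfsg.Agent.LieClassical.HermSiegel
open Cfsg.Agent.ClassicalGeometry.PSUAutBasic Cfsg.Agent.ClassicalGeometry.HermOrtho
open Cfsg.Agent.ClassicalGeometry.PSUAutCount (toAut gm gm_mul gm_one gm_mul_inv gm_inv_mul guConj act_guConj gm_inj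
  gm_inv_mulVec gm_mulVec_inv herm_gm)
open Cfsg.Agent.H251.Unf Cfsg.Agent.H277.MI Cfsg.Agent.H51.Mult

variable {F : Type*} [Field F] [Fintype F] {q n m : ℕ}

/-- `B` is diagonal -/
def Dg (B : SU n F q) : Prop := ∃ d : Fin n → F, ∀ i, act B (Pi.single i 1) = d i • Pi.single i 1

theorem Dg.comm {B B' : SU n F q} (h : Dg B) (h' : Dg B') : B * B' = B' * B := by
  obtain ⟨d, hd⟩ := h
  obtain ⟨d', hd'⟩ := h'
  apply ext_act
  intro v
  rw [act_mul, act_mul, act_of_basis hd, act_of_basis hd', act_of_basis hd', act_of_basis hd]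
  ring

/-- the scalar of the square -/
theorem exists_sq {L : Type*} [Group L] (hF : Fintype.card F = q ^ 2) (hodd : Odd q) (hn : 3 ≤ n) {π : L →* PSU n F q}
    {f : SU n F q →* L} (hf : ∀ x, π (f x) = QuotientGroup.mk' (center (SU n F q)) x) {A : SU n F q} (hA : f (A * A) = 1) :
    ∃ ν : F, (∀ v, act A (act A v) = (ν * ν) • v) ∧ (ν * ν ^ q = 1 ∨ ν * ν ^ q = -1) := by
  have h1 : A * A ∈ center (SU n F q) := by
    have h4 : QuotientGroup.mk' (center (SU n F q)) (A * A) = 1 := by rw [← hf, hA, map_one]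
    rwa [← MonoidHom.mem_ker, QuotientGroup.ker_mk'] at h4
  obtain ⟨c, -, hc, hv⟩ := exists_scalar_of_mem_center hF hn h1
  obtain ⟨ν, rfl, hν⟩ := exists_root hF hodd hc
  exact ⟨ν, fun v => by rw [← act_mul]; exact hv v, hν⟩

/-- **No elements of the second kind.** -/
theorem em_one {L : Type*} [Group L] (hF : Fintype.card F = q ^ 2) (hodd : Odd q) (hn : 3 ≤ n) {π : L →* PSU n F q}
    {f : SU n F q →* L} (hsf : Function.Surjective f)
    (hf : ∀ x, π (f x) = QuotientGroup.mk' (center (SU n F q)) x)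
    (hno : ¬ ∃ (A : SU n F q) (ν : F), f (A * A) = 1 ∧ ν * ν ^ q = -1 ∧ ∀ v, act A (act A v) = (ν * ν) • v) : EM L := by
  refine em_of_commuting {y | ∃ B, Dg B ∧ f (B * B) = 1 ∧ y = f B} ?_ ?_ ?_
  · rintro x ⟨B, -, h, rfl⟩
    rw [← map_mul, h]
  · rintro x ⟨B, hB, -, rfl⟩ y ⟨B', hB', -, rfl⟩
    rw [← map_mul, ← map_mul, hB.comm hB']
  · intro t ht
    obtain ⟨A, rfl⟩ := hsf t
    have hAA : f (A * A) = 1 := by rw [map_mul]; exact sq_of_orderOf ht
    obtain ⟨ν, hν, h1 | h1⟩ := exists_sq hF hodd hn hf hAA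
    · obtain ⟨C, d, hd, -⟩ := diag_case hF hodd A h1 hν
      obtain ⟨c, hc⟩ := conj_su hF (C := C) rfl (diag_cent (by omega) hd)
      refine ⟨f c, subset_closure ⟨guConj C A, ⟨d, hd⟩, ?_, ?_⟩⟩
      · rw [← hc, show c * A * c⁻¹ * (c * A * c⁻¹) = c * (A * A) * c⁻¹ by group, map_mul, map_mul, hAA, mul_one,
          ← map_mul, mul_inv_cancel, map_one]
      · rw [← map_inv, ← map_mul, ← map_mul, hc]
    · exact absurd ⟨A, ν, hAA, h1, hν⟩ hno

/-- a diagonal matrix constant on pairs -/
def Dp (e : Fin 2 × Fin m ≃ Fin n) (B : SU n F q) : Prop :=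
  ∃ d : Fin n → F, (∀ i, act B (Pi.single i 1) = d i • Pi.single i 1) ∧ ∀ i, d (e (0, i)) = d (e (1, i))

/-- commutation of linear maps on the standard basis -/
theorem eq_of_basis {A B : SU n F q} (e : Fin 2 × Fin m ≃ Fin n)
    (h : ∀ i, act A (Pi.single (e (0, i)) 1) = act B (Pi.single (e (0, i)) 1) ∧
      act A (Pi.single (e (1, i)) 1) = act B (Pi.single (e (1, i)) 1)) : A = B := by
  apply mat_injective
  apply Matrix.ext_of_mulVec_single
  intro j
  obtain ⟨⟨l, i⟩, rfl⟩ := e.surjective j
  fin_cases l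
  · exact (h i).1
  · exact (h i).2

/-- an even number of signs: a permutation making it constant on pairs -/
theorem exists_perm (e : Fin 2 × Fin m ≃ Fin n) (δ : Fin n → Bool) {k : ℕ} (hk : ClassicalGeometry.SympInvolutions.cnt δ = 2 * k) :
    ∃ σ : Equiv.Perm (Fin n), ∀ i, δ (σ (e (0, i))) = δ (σ (e (1, i))) := by
  classical
  have hcard : n = 2 * m := by
    have := Fintype.card_congr e
    simpa using this.symm
  have hkm : k ≤ m := by
    have := ClassicalGeometry.SympInvolutions.cnt_le δ
    omega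
  obtain ⟨T, -, hT⟩ := Finset.exists_subset_card_eq (s := (Finset.univ : Finset (Fin m))) (n := k) (by
    rw [Finset.card_univ, Fintype.card_fin]; exact hkm)
  obtain ⟨δ', hδ'⟩ : ∃ δ' : Fin n → Bool, δ' = fun x => decide ((e.symm x).2 ∈ T) := ⟨_, rfl⟩
  have h1 : ClassicalGeometry.SympInvolutions.cnt δ' = 2 * k := by
    unfold ClassicalGeometry.SympInvolutions.cnt
    rw [Fintype.card_subtype]
    have h2 : (Finset.univ.filter fun x => δ' x = true) = ((Finset.univ : Finset (Fin 2)) ×ˢ T).map e.toEmbedding := by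
      ext x
      rw [Finset.mem_filter, Finset.mem_map]
      constructor
      · rintro ⟨-, hx⟩
        rw [hδ', decide_eq_true_eq] at hx
        exact ⟨e.symm x, by rw [Finset.mem_product]; exact ⟨Finset.mem_univ _, hx⟩, e.apply_symm_apply x⟩
      · rintro ⟨p, hp, rfl⟩
        rw [Finset.mem_product] at hp
        refine ⟨Finset.mem_univ _, ?_⟩
        rw [hδ', decide_eq_true_eq]
        show (e.symm (e p)).2 ∈ T
        rw [e.symm_apply_apply]
        exact hp.2
    rw [h2, Finset.card_map, Finset.card_product, Finset.card_univ, Fintype.card_fin, hT]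
  obtain ⟨σ, hσ⟩ := ClassicalGeometry.SympInvolutions.exists_perm_of_cnt_eq (h1.trans hk.symm)
  refine ⟨σ, fun i => ?_⟩
  have h3 : ∀ x, δ (σ x) = δ' x := fun x => congrFun hσ x
  rw [h3, h3, hδ']
  simp only [e.symm_apply_apply]

/-- **An element of the second kind occurs.** -/
theorem em_two {L : Type*} [Group L] (hF : Fintype.card F = q ^ 2) (hodd : Odd q) (hn : 3 ≤ n) {π : L →* PSU n F q}
    {f : SU n F q →* L} (hsf : Function.Surjective f)
    (hf : ∀ x, π (f x) = QuotientGroup.mk' (center (SU n F q)) x)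
    {e : Fin 2 × Fin m ≃ Fin n} {B₀ : SU n F q} {ν₀ : F} (hB₀ : f (B₀ * B₀) = 1) (hν₀ : ν₀ * ν₀ ^ q = -1)
    (hp : ∀ i, act B₀ (Pi.single (e (0, i)) 1) = (1 : F) • Pi.single (e (1, i)) 1 ∧
      act B₀ (Pi.single (e (1, i)) 1) = (ν₀ * ν₀) • Pi.single (e (0, i)) 1) : EM L := by
  have h2 := two_ne hF hodd
  have hcard : n = 2 * m := by
    have := Fintype.card_congr e
    simpa using this.symm
  have hν₀0 : ν₀ ≠ 0 := by
    rintro rfl
    rw [zero_mul] at hν₀
    exact one_ne_zero (neg_eq_zero.1 hν₀.symm)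
  have hdB : ∀ {B : SU n F q}, Dp e B → B * B₀ = B₀ * B := by
    rintro B ⟨d, hd, hdp⟩
    apply eq_of_basis e
    intro i
    rw [act_mul, act_mul, act_mul, act_mul, (hp i).1, (hp i).2, act_smul, act_smul, hd, hd, act_smul, act_smul, (hp i).1,
      (hp i).2, hdp i]
    constructor
    · rw [smul_comm]
    · rw [smul_comm]
  refine em_of_commuting ({y | ∃ B, Dp e B ∧ f (B * B) = 1 ∧ y = f B} ∪
    {y | ∃ (B : SU n F q) (κ : F), (∀ v, act B v = κ • act B₀ v) ∧ f (B * B) = 1 ∧ y = f B}) ?_ ?_ ?_
  · rintro x (⟨B, -, h, rfl⟩ | ⟨B, κ, -, h, rfl⟩)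
    · rw [← map_mul, h]
    · rw [← map_mul, h]
  · rintro x (⟨B, hB, -, rfl⟩ | ⟨B, κ, hB, -, rfl⟩) y (⟨B', hB', -, rfl⟩ | ⟨B', κ', hB', -, rfl⟩)
    · obtain ⟨d, hd, -⟩ := hB
      obtain ⟨d', hd', -⟩ := hB'
      rw [← map_mul, ← map_mul, Dg.comm ⟨d, hd⟩ ⟨d', hd'⟩]
    · rw [← map_mul, ← map_mul]
      congr 1
      apply ext_act
      intro v
      rw [act_mul, act_mul, hB', hB', act_smul, ← act_mul, ← act_mul, hdB hB]
    · rw [← map_mul, ← map_mul]
      congr 1
      apply ext_act
      intro v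
      rw [act_mul, act_mul, hB, hB, act_smul, ← act_mul, ← act_mul, hdB hB']
    · rw [← map_mul, ← map_mul]
      congr 1
      apply ext_act
      intro v
      rw [act_mul, act_mul, hB, hB', hB', hB, act_smul, act_smul, smul_comm]
  · intro t ht
    obtain ⟨A, rfl⟩ := hsf t
    have hAA : f (A * A) = 1 := by rw [map_mul]; exact sq_of_orderOf ht
    have hfc : ∀ (c B : SU n F q), c * A * c⁻¹ = B → f (B * B) = 1 := by
      rintro c B rfl
      rw [show c * A * c⁻¹ * (c * A * c⁻¹) = c * (A * A) * c⁻¹ by group, map_mul, map_mul, hAA, mul_one,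
        ← map_mul, mul_inv_cancel, map_one]
    obtain ⟨ν, hν, h1 | h1⟩ := exists_sq hF hodd hn hf hAA
    · -- first kind
      have hν0 : ν ≠ 0 := by
        rintro rfl
        rw [zero_mul] at h1
        exact zero_ne_one h1
      obtain ⟨b, -, hb, hbA⟩ := exists_diag_aux hF h2 (mat A).mulVecLin (fun u v => herm_act A u v) h1 hν n ⊤
        (fun _ _ => trivial) (nondeg_top hF) (by rw [finrank_top, finrank_fin_fun])
      choose ε hε hεA using hbA
      have hεA' : ∀ i, act A (b i) = (ε i * ν) • b i := hεA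
      -- the number of signs
      obtain ⟨δ, hδ⟩ : ∃ δ : Fin n → Bool, ∀ i, ε i = if δ i = true then -1 else 1 := by
        classical
        refine ⟨fun i => decide (ε i = -1), fun i => ?_⟩
        by_cases h : ε i = -1
        · rw [if_pos (decide_eq_true h)]; exact h
        · rw [if_neg (fun h3 => h (of_decide_eq_true h3))]; exact (hε i).resolve_right h
      have heven : ∃ k, ClassicalGeometry.SympInvolutions.cnt δ = 2 * k := by
        obtain ⟨C, hC⟩ := exists_col hF hb
        have h3 : ∀ i, act (guConj C A) (Pi.single i 1) = (ε i * ν) • Pi.single i 1 := fun i => act_col hC (hεA' i)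
        have h4 := prod_of_basis h3
        rw [Finset.prod_mul_distrib, Finset.prod_const, Finset.card_univ, Fintype.card_fin,
          Finset.prod_congr rfl fun i _ => hδ i, Finset.prod_ite, Finset.prod_const, Finset.prod_const_one, mul_one] at h4
        have h5 : (Finset.univ.filter fun i => δ i = true).card = ClassicalGeometry.SympInvolutions.cnt δ := by
          unfold ClassicalGeometry.SympInvolutions.cnt
          rw [Fintype.card_subtype]
        rw [h5] at h4
        rcases Nat.even_or_odd (ClassicalGeometry.SympInvolutions.cnt δ) with he | ho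
        · obtain ⟨k, hk⟩ := he
          exact ⟨k, by omega⟩
        · exfalso
          rw [ho.neg_one_pow] at h4
          have hνn : ν ^ n = -1 := by linear_combination -h4
          have hdet : ν₀ ^ (2 * n) = 1 := by
            have h6 := det_mat B₀
            rw [mat_of_pair e hp, det_blk, det_fin_two_of] at h6
            have h7 : (-(ν₀ * ν₀)) ^ m = 1 := by
              rw [← h6]; ring
            have h8 : ((-(ν₀ * ν₀)) ^ m) ^ 2 = 1 := by rw [h7, one_pow]
            have h9 : (-(ν₀ * ν₀)) ^ (2 * m) = (ν₀ * ν₀) ^ (2 * m) := Even.neg_pow ⟨m, by ring⟩ _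
            rw [← h8, hcard, ← pow_mul, mul_comm m 2, h9]
            ring
          exact no_both h2 (by omega) hνn (by rw [pow_succ', h1]) (by rw [pow_succ', hν₀]) hdet
      obtain ⟨k, hk⟩ := heven
      obtain ⟨σ, hσ⟩ := exists_perm e δ hk
      obtain ⟨C, hC⟩ := exists_col hF (b := fun i => b (σ i)) (fun i j => by
        rw [hb]
        simp only [EmbeddingLike.apply_eq_iff_eq])
      have h3 : ∀ i, act (guConj C A) (Pi.single i 1) = (ε (σ i) * ν) • Pi.single i 1 :=
        fun i => act_col hC (hεA' (σ i))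
      obtain ⟨c, hc⟩ := conj_su hF (C := C) rfl (diag_cent (by omega) h3)
      refine ⟨f c, subset_closure (Or.inl ⟨guConj C A, ⟨_, h3, fun i => ?_⟩, hfc c _ hc, ?_⟩)⟩
      · simp only [hδ, hσ i]
      · rw [← map_inv, ← map_mul, ← map_mul, hc]
    · -- second kind
      obtain ⟨m', b, hm', -, hb, hbA⟩ := exists_pair_aux hF h2 (mat A).mulVecLin (fun u v => herm_act A u v) h1
        hν n ⊤ (fun _ _ => trivial) (nondeg_top hF) (by rw [finrank_top, finrank_fin_fun])
      have hmm : m' = m := by omega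
      subst hmm
      have hν0 : ν ≠ 0 := by
        rintro rfl
        rw [zero_mul] at h1
        exact one_ne_zero (neg_eq_zero.1 h1.symm)
      obtain ⟨κ, hκ⟩ : ∃ κ, κ = ν * ν₀⁻¹ := ⟨_, rfl⟩
      have hκ0 : κ ≠ 0 := by rw [hκ]; exact mul_ne_zero hν0 (inv_ne_zero hν₀0)
      have hκq : κ * κ ^ q = 1 := by
        rw [hκ, mul_pow, inv_pow]
        have h3 : ν₀ ^ q ≠ 0 := pow_ne_zero _ hν₀0
        field_simp
        rw [h1, hν₀]
      obtain ⟨b', hb'⟩ : ∃ b' : Fin n → (Fin n → F), b' = fun x =>
          (if (e.symm x).1 = 1 then κ⁻¹ else 1) • b ((e.symm x).2, (e.symm x).1) := ⟨_, rfl⟩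
      have hκi : κ⁻¹ * (κ⁻¹) ^ q = 1 := by rw [inv_pow, ← mul_inv, hκq, inv_one]
      have hborth : ∀ i j, hermForm n F q (b' i) (b' j) = if i = j then 1 else 0 := by
        intro x y
        obtain ⟨⟨l, i⟩, rfl⟩ := e.surjective x
        obtain ⟨⟨l', i'⟩, rfl⟩ := e.surjective y
        rw [hb']
        simp only [e.symm_apply_apply]
        rw [herm_smul_left, herm_smul_right, hb]
        by_cases h : (l, i) = (l', i')
        · rw [Prod.mk.injEq] at h
          obtain ⟨rfl, rfl⟩ := h
          rw [if_pos rfl, if_pos rfl, mul_one]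
          split_ifs
          · exact hκi
          · rw [one_pow, mul_one]
        · have hne : (i, l) ≠ (i', l') := by
            intro h3
            rw [Prod.mk.injEq] at h3
            exact h (by rw [h3.1, h3.2])
          have hne2 : e (l, i) ≠ e (l', i') := fun h3 => h (e.injective h3)
          rw [if_neg hne, if_neg hne2, mul_zero, mul_zero]
      obtain ⟨C, hC⟩ := exists_col hF hborth
      have hA0 : ∀ i, act A (b (i, 0)) = b (i, 1) := fun i => (hbA i).1
      have hA1 : ∀ i, act A (b (i, 1)) = (ν * ν) • b (i, 0) := fun i => (hbA i).2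
      have hb0 : ∀ i, b' (e (0, i)) = b (i, 0) := by
        intro i
        rw [hb']
        simp only [e.symm_apply_apply]
        rw [if_neg (by decide), one_smul]
      have hb1 : ∀ i, b' (e (1, i)) = κ⁻¹ • b (i, 1) := by
        intro i
        rw [hb']
        simp only [e.symm_apply_apply]
        rw [if_pos (by decide)]
      have hB0 : ∀ i, act (guConj C A) (Pi.single (e (0, i)) 1) = κ • Pi.single (e (1, i)) 1 := by
        intro i
        refine act_col hC ?_
        rw [hb0, hb1, hA0, smul_smul, mul_inv_cancel₀ hκ0, one_smul]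
      have hB1 : ∀ i, act (guConj C A) (Pi.single (e (1, i)) 1) = (κ * (ν₀ * ν₀)) • Pi.single (e (0, i)) 1 := by
        intro i
        refine act_col hC ?_
        rw [hb0, hb1, act_smul, hA1, smul_smul]
        congr 1
        rw [hκ]
        field_simp
      have hκB : ∀ v, act (guConj C A) v = κ • act B₀ v := by
        have h3 : mat (guConj C A) = κ • mat B₀ := by
          apply Matrix.ext_of_mulVec_single
          intro j
          obtain ⟨⟨l, i⟩, rfl⟩ := e.surjective j
          rw [smul_mulVec]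
          fin_cases l
          · refine (hB0 i).trans ?_
            have := (hp i).1
            rw [act_def] at this
            show _ = κ • (mat B₀ *ᵥ Pi.single (e (0, i)) 1)
            rw [this, one_smul]
          · refine (hB1 i).trans ?_
            have := (hp i).2
            rw [act_def] at this
            show _ = κ • (mat B₀ *ᵥ Pi.single (e (1, i)) 1)
            rw [this, smul_smul]
        intro v
        rw [act_def, h3, smul_mulVec, act_def]
      obtain ⟨c, hc⟩ := conj_su hF (C := C) rfl (B := guConj C A) (fun δ hδ => by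
        obtain ⟨D, hD1, hD2⟩ := pair_cent hF hodd (by omega) hν₀ hp δ hδ
        refine ⟨D, hD1, guConj_eq_of_comm fun w => ?_⟩
        rw [hκB, hκB, mulVec_smul, hD2])
      refine ⟨f c, subset_closure (Or.inr ⟨guConj C A, κ, hκB, hfc c _ hc, ?_⟩)⟩
      rw [← map_inv, ← map_mul, ← map_mul, hc]

/-- **The row, for `F : Type`.** -/
theorem crow_psu {F : Type} [Field F] [Fintype F] {n q : ℕ} (hF : Fintype.card F = q ^ 2) (hodd : Odd q) (hn : 3 ≤ n) :
    CRow (PSU n F q) := by
  intro L _ _ π hπ hker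
  obtain ⟨p, a, hp, hch, hq, ha⟩ := exists_prime_pow hF
  have hp2 : 2 ≠ p := by
    rintro rfl
    rw [hq] at hodd
    exact (Nat.not_even_iff_odd.2 hodd) ((even_two).pow_of_ne_zero (by omega))
  have hcov := H61.PSUMult.noPCov_cross hF hn hp Nat.prime_two hp2
  have hσ : PCE (QuotientGroup.mk' (center (SU n F q))) :=
    ⟨QuotientGroup.mk'_surjective _, by rw [QuotientGroup.ker_mk'],
      LieClassical.HermPerfect.commutator_SU_eq_top hF hn fun h => by
        rw [h.2] at hodd
        exact absurd hodd (by decide)⟩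
  obtain ⟨f, hsf, hf⟩ := EMCov.exists_cover_map_two hσ hπ hcov hker
  by_cases hno : ∃ (A : SU n F q) (ν : F), f (A * A) = 1 ∧ ν * ν ^ q = -1 ∧ ∀ v, act A (act A v) = (ν * ν) • v
  · obtain ⟨A, ν, hAA, hν, hv⟩ := hno
    obtain ⟨m, e, C, -, hB⟩ := pair_case hF hodd A hν hv
    refine em_two hF hodd hn hsf hf (B₀ := guConj C A) ?_ hν hB
    have h1 : guConj C A * guConj C A = A * A := by
      apply ext_act
      intro v
      rw [act_mul, act_mul, act_guConj, act_guConj, gm_inv_mulVec, hv, hv, mulVec_smul, gm_mulVec_inv]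
    rw [h1, hAA]
  · exact em_one hF hodd hn hsf hf hno

universe u

/-- **Row `PSU_n(q)`, `q` odd.** -/
theorem crow_psu_odd {L : Type u} [Group L] {F : Type} [Field F] [Fintype F] {n q : ℕ}
    (hF : Fintype.card F = q ^ 2) (hq : Odd q) (hn : 3 ≤ n) (e : L ≃* Cfsg.PSU n F q) : CRow L :=
  CRow.congr e (crow_psu hF hq hn)

end Cfsg.Agent.H889.EMPsu
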